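import Cfsg.Agent.H380.RC.EStmt
import Cfsg.Agent.H380.RC.Point
import Cfsg.Agent.H520.RC.SpId
import Cfsg.Agent.LieRecognition.FieldSemilinear

/-!
# S3510, family E (unitary groups), boxes E12a (`gForm`), E12b (`graphAlt`) (helper433)

* `gForm` : the normal form of a graph involution;
* `graphAlt` : the form on the fixed points of `T` is alternating;

* `TA` : `T` semilinear involution, `h (T u) (T v) = - h u v ^ q`, `h v v = 0` if `T v = v`;
* `K0`, `V0` : the fixed field and the fixed points; `bf` : the alternating form; `exists_dec`, `finrank_V0`;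
* `mrule_hom` : the M-rule for a homomorphism `j : X →* G`;
-/

set_option autoImplicit false
set_option linter.unusedSectionVars false

namespace Cfsg.Agent.H433.RC

open Matrix Cfsg Cfsg.Agent.LieClassical.HermBasic Cfsg.Agent.LieClassical.HermSiegel
  Cfsg.Agent.LieClassical.HermGen Cfsg.Agent.LieClassical.SUBasic
  Cfsg.Agent.ClassicalGeometry.PSUAutBasic
  Cfsg.Agent.ClassicalGeometry.PSUAutCount Cfsg.Agent.LieClassical.FieldTransfer Cfsg.Agent.H380.RC

section field

variable {F : Type*} [Field F] [Fintype F] {q : ℕ}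

/-- an involutory field automorphism is `c ↦ c ^ q` -/
theorem eq_pow_q (hF : Fintype.card F = q ^ 2) {ρ : F ≃+* F} (h2 : ∀ c, ρ (ρ c) = c) (h1 : ∃ c, ρ c ≠ c) (c : F) :
    ρ c = c ^ q := by
  classical
  have hc : IsCyclic (F ≃+* F) := LieRecognition.FieldSemilinear.isCyclic_ringAut F
  have hfin : Finite (F ≃+* F) := Finite.of_injective (fun f : F ≃+* F => (f : F → F)) DFunLike.coe_injective
  have := Fintype.ofFinite (F ≃+* F)
  obtain ⟨a, ha⟩ := exists_not_fixed hF
  by_contra hne
  have h3 : ({1, conj hF, ρ} : Finset (F ≃+* F)) ⊆ Finset.univ.filter fun σ : F ≃+* F => σ ^ 2 = 1 := by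
    intro σ hσ
    rw [Finset.mem_filter]
    refine ⟨Finset.mem_univ _, ?_⟩
    rw [Finset.mem_insert, Finset.mem_insert, Finset.mem_singleton] at hσ
    rcases hσ with rfl | rfl | rfl
    · exact one_pow 2
    · ext x
      exact pow_q_pow_q hF x
    · ext x
      exact h2 x
  have h4 := Finset.card_le_card h3
  have h5 := IsCyclic.card_pow_eq_one_le (α := F ≃+* F) (n := 2) (by norm_num)
  have h6 : ({1, conj hF, ρ} : Finset (F ≃+* F)).card = 3 := by
    rw [Finset.card_insert_of_notMem, Finset.card_insert_of_notMem, Finset.card_singleton]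
    · rw [Finset.mem_singleton]
      intro h
      exact hne (by rw [← h]; rfl)
    · rw [Finset.mem_insert, Finset.mem_singleton, not_or]
      constructor
      · intro h
        exact ha (by
          have := congrArg (fun σ : F ≃+* F => σ a) h
          exact this.symm)
      · rintro rfl
        obtain ⟨c, hc⟩ := h1
        exact hc rfl
  omega

end field

/-- **E12a** -/
theorem gForm : GFormStmt := by
  intro G Ω _ _ _ N F _ _ n q U ι _ x f r h i₀ hnl hr hlin
  have hF := U.hF
  have hL := h.lft i₀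
  obtain ⟨ρ, hs, hh⟩ := Ind.exists_rho hL
  have hadd := Ind.map_add hL
  -- the square
  have h2 : U.Lft 1 (f i₀)^[2] := by
    have h3 := hL.pow 2
    have h4 := h.pf.pow i₀
    rw [hr] at h4
    rwa [h4] at h3
  obtain ⟨μ, hμ, hμ2⟩ := U.lft_one.unique h2
  have hff : ∀ v, f i₀ (f i₀ v) = μ • v := hμ2
  have hn := U.hn
  obtain ⟨v₀, w₀, hvw⟩ : ∃ v w : Fin n → F, hermForm n F q v w = 1 := by
    refine ⟨Pi.single ⟨0, by omega⟩ 1, Pi.single ⟨0, by omega⟩ 1, ?_⟩
    rw [herm_single_left, Pi.single_eq_same, one_pow, one_mul]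
  have hv0 : v₀ ≠ 0 := by
    rintro rfl
    rw [herm_zero_left] at hvw
    exact zero_ne_one hvw
  have hμ0 : μ ≠ 0 := by
    rintro rfl
    rw [zero_mul] at hμ
    exact zero_ne_one hμ
  -- the field automorphism
  have hρ2 : ∀ c, ρ (ρ c) = c := by
    intro c
    have h3 := hff (c • v₀)
    rw [hs, hs, hff, smul_smul, smul_smul] at h3
    have h4 : (ρ (ρ c) * μ - μ * c) • v₀ = 0 := by rw [sub_smul, h3, sub_self]
    rcases smul_eq_zero.1 h4 with h5 | h5
    · have h6 : μ * (ρ (ρ c) - c) = 0 := by linear_combination h5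
      exact sub_eq_zero.1 ((mul_eq_zero.1 h6).resolve_left hμ0)
    · exact absurd h5 hv0
  have hρ1 : ∃ c, ρ c ≠ c := by
    by_contra hcon
    push Not at hcon
    exact hnl fun c v => by rw [hs, hcon]
  have hρ : ∀ c, ρ c = c ^ q := eq_pow_q hF hρ2 hρ1
  have hfv : f i₀ v₀ ≠ 0 := by
    intro h0
    have h3 := hh v₀ w₀
    rw [h0, herm_zero_left, hvw, map_one] at h3
    exact zero_ne_one h3
  -- `μ ^ q = μ`
  have hμq : μ ^ q = μ := by
    have h3 : f i₀ (f i₀ (f i₀ v₀)) = μ ^ q • f i₀ v₀ := by rw [hff v₀, hs, hρ]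
    rw [hff (f i₀ v₀)] at h3
    have h4 : (μ ^ q - μ) • f i₀ v₀ = 0 := by rw [sub_smul, ← h3, sub_self]
    exact sub_eq_zero.1 ((smul_eq_zero.1 h4).resolve_right hfv)
  have hμ1 : μ * μ = 1 := by rwa [hμq] at hμ
  have hμc : μ = 1 ∨ μ = -1 := mul_self_eq_one_iff.1 hμ1
  obtain ⟨b, hb0, hb⟩ := exists_norm_eq_ne hF hμq hμ0
  have hT : ∀ u v, hermForm n F q (b • f i₀ u) (b • f i₀ v) = μ * (hermForm n F q u v) ^ q := by
    intro u v
    rw [herm_smul_left, herm_smul_right, hh, hρ, ← hb]
    ring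
  refine ⟨fun v => b • f i₀ v, ⟨h, hr, hnl, hlin, ⟨b, hb0, fun v => rfl⟩, ?_, ?_, ?_, ⟨μ, hμc, hT⟩, ?_⟩⟩
  · intro v
    show b • f i₀ (b • f i₀ v) = v
    rw [hs, hff, hρ, smul_smul, smul_smul, hb, hμ1, one_smul]
  · intro v w
    show b • f i₀ (v + w) = b • f i₀ v + b • f i₀ w
    rw [hadd, smul_add]
  · intro c v
    show b • f i₀ (c • v) = c ^ q • b • f i₀ v
    rw [hs, hρ, smul_comm]
  · intro j hj v
    show f j (b • f i₀ v) = b • f i₀ (f j v)
    rw [hlin j hj, h.comm]

section V0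

variable {F : Type*} [Field F] [Fintype F] {n q : ℕ}

/-- the fixed field -/
def K0 (hF : Fintype.card F = q ^ 2) : Subfield F := ((conj hF : F ≃+* F) : F →+* F).eqLocusField (RingHom.id F)

theorem mem_K0 {hF : Fintype.card F = q ^ 2} {c : F} : c ∈ K0 hF ↔ c ^ q = c := Iff.rfl

theorem card_K0 (hF : Fintype.card F = q ^ 2) : Nat.card (K0 hF) = q := card_fixed hF

/-- a semilinear involution whose fixed points are totally isotropic vectors -/
structure TA (n q : ℕ) (T : (Fin n → F) → (Fin n → F)) : Prop where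
  TT : ∀ v, T (T v) = v
  add : ∀ v w, T (v + w) = T v + T w
  smul : ∀ (c : F) v, T (c • v) = c ^ q • T v
  herm : ∀ u v, hermForm n F q (T u) (T v) = -(hermForm n F q u v) ^ q
  alt : ∀ v, T v = v → hermForm n F q v v = 0

variable {T : (Fin n → F) → (Fin n → F)}

/-- decomposition `V = V₀ + θ V₀` -/
theorem exists_dec (hF : Fintype.card F = q ^ 2) (hTT : ∀ v, T (T v) = v) (hsub : ∀ v w, T (v - w) = T v - T w)
    (hsmul : ∀ (c : F) v, T (c • v) = c ^ q • T v) {θ : F} (hθ : θ ^ q ≠ θ) (v : Fin n → F) :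
    ∃ a b : Fin n → F, T a = a ∧ T b = b ∧ v = a + θ • b := by
  have h0 : θ - θ ^ q ≠ 0 := sub_ne_zero.2 (Ne.symm hθ)
  set b : Fin n → F := (θ - θ ^ q)⁻¹ • (v - T v) with hb
  have h1 : T b = b := by
    rw [hb, hsmul, hsub, hTT, inv_pow, sub_pow_q hF, pow_q_pow_q hF]
    have h2 : (θ ^ q - θ)⁻¹ = -(θ - θ ^ q)⁻¹ := by rw [← inv_neg, neg_sub]
    rw [h2, neg_smul, ← smul_neg, neg_sub]
  have h3 : (θ - θ ^ q) • b = v - T v := by rw [hb, smul_smul, mul_inv_cancel₀ h0, one_smul]
  refine ⟨v - θ • b, b, ?_, h1, by rw [sub_add_cancel]⟩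
  rw [hsub, hsmul, h1]
  have h4 : v - T v = θ • b - θ ^ q • b := by rw [← h3, sub_smul]
  have h5 : T v = v - (θ • b - θ ^ q • b) := by rw [← h4, sub_sub_cancel]
  rw [h5]
  abel

namespace TA

theorem zero (h : TA n q T) : T 0 = 0 := by
  have := h.add 0 0
  rw [add_zero] at this
  simpa using this

theorem neg (h : TA n q T) (v : Fin n → F) : T (-v) = -T v := by
  rw [eq_neg_iff_add_eq_zero, ← h.add, neg_add_cancel, h.zero]

theorem sub (h : TA n q T) (v w : Fin n → F) : T (v - w) = T v - T w := by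
  rw [sub_eq_add_neg, h.add, h.neg, ← sub_eq_add_neg]

/-- the fixed points -/
def V0 (h : TA n q T) (hF : Fintype.card F = q ^ 2) : Submodule (K0 hF) (Fin n → F) where
  carrier := {v | T v = v}
  add_mem' {a b} ha hb := by
    show T (a + b) = a + b
    rw [h.add, show T a = a from ha, show T b = b from hb]
  zero_mem' := h.zero
  smul_mem' c v hv := by
    show T ((c : F) • v) = (c : F) • v
    rw [h.smul, show T v = v from hv, mem_K0.1 c.2]

variable {hF : Fintype.card F = q ^ 2}

theorem mem_V0 (h : TA n q T) {v : Fin n → F} : v ∈ h.V0 hF ↔ T v = v := Iff.rfl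

/-- decomposition `V = V₀ + θ V₀` -/
theorem dec (h : TA n q T) (hF : Fintype.card F = q ^ 2) {θ : F} (hθ : θ ^ q ≠ θ) (v : Fin n → F) :
    ∃ a b : Fin n → F, T a = a ∧ T b = b ∧ v = a + θ • b := exists_dec hF h.TT h.sub h.smul hθ v

/-- uniqueness of the decomposition -/
theorem dec_unique (h : TA n q T) {θ : F} (hθ : θ ^ q ≠ θ) {a b a' b' : Fin n → F} (ha : T a = a) (hb : T b = b)
    (ha' : T a' = a') (hb' : T b' = b') (he : a + θ • b = a' + θ • b') : a = a' ∧ b = b' := by
  have h0 : θ - θ ^ q ≠ 0 := sub_ne_zero.2 (Ne.symm hθ)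
  have h1 : (a - a') + θ • (b - b') = 0 := by
    rw [smul_sub]
    have : a - a' + (θ • b - θ • b') = (a + θ • b) - (a' + θ • b') := by abel
    rw [this, he, sub_self]
  have h2 := congrArg T h1
  rw [h.zero, h.add, h.smul, h.sub, h.sub, ha, hb, ha', hb'] at h2
  have h3 : (θ - θ ^ q) • (b - b') = 0 := by
    rw [sub_smul]
    have : θ • (b - b') - θ ^ q • (b - b') = ((a - a') + θ • (b - b')) - ((a - a') + θ ^ q • (b - b')) := by abel
    rw [this, h1, h2, sub_self]
  have h4 : b - b' = 0 := (smul_eq_zero.1 h3).resolve_left h0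
  refine ⟨?_, sub_eq_zero.1 h4⟩
  rw [h4, smul_zero, add_zero] at h1
  exact sub_eq_zero.1 h1

/-- the dimension -/
theorem finrank_V0 (h : TA n q T) : Module.finrank (K0 hF) (h.V0 hF) = n := by
  obtain ⟨θ, hθ⟩ := exists_not_fixed hF
  have hb : Function.Bijective fun p : h.V0 hF × h.V0 hF => (p.1 : Fin n → F) + θ • (p.2 : Fin n → F) := by
    constructor
    · rintro ⟨a, b⟩ ⟨a', b'⟩ he
      obtain ⟨h1, h2⟩ := h.dec_unique hθ a.2 b.2 a'.2 b'.2 he
      exact Prod.ext (Subtype.ext h1) (Subtype.ext h2)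
    · intro v
      obtain ⟨a, b, ha, hb, e⟩ := h.dec hF hθ v
      exact ⟨(⟨a, ha⟩, ⟨b, hb⟩), e.symm⟩
  have h1 := Nat.card_congr (Equiv.ofBijective _ hb)
  rw [Nat.card_prod] at h1
  have h2 : Nat.card (Fin n → F) = (q ^ n) * (q ^ n) := by
    rw [Nat.card_fun, Nat.card_fin, Nat.card_eq_fintype_card, hF, ← pow_mul, ← pow_add]
    congr 1
    ring
  rw [h2] at h1
  have h3 : Nat.card (h.V0 hF) = q ^ n := Nat.mul_self_inj.1 h1
  have h4 := Module.natCard_eq_pow_finrank (K := K0 hF) (V := h.V0 hF)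
  rw [h3, card_K0] at h4
  exact (Nat.pow_right_injective (two_le hF) h4).symm


theorem eq_on (h : TA n q T) (hF : Fintype.card F = q ^ 2) {φ ψ : (Fin n → F) → (Fin n → F)}
    (h1 : ∀ v w, φ (v + w) = φ v + φ w) (h2 : ∀ (c : F) v, φ (c • v) = c • φ v)
    (h3 : ∀ v w, ψ (v + w) = ψ v + ψ w) (h4 : ∀ (c : F) v, ψ (c • v) = c • ψ v) (h0 : ∀ v, T v = v → φ v = ψ v)
    (v : Fin n → F) : φ v = ψ v := by
  obtain ⟨θ, hθ⟩ := exists_not_fixed hF
  obtain ⟨a, b, ha, hb, rfl⟩ := h.dec hF hθ v
  rw [h1, h2, h3, h4, h0 a ha, h0 b hb]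

/-- `h u v ^ q = - h u v` on `V₀` -/
theorem herm_V0 (h : TA n q T) {u v : Fin n → F} (hu : T u = u) (hv : T v = v) :
    (hermForm n F q u v) ^ q = -hermForm n F q u v := by
  have h1 := h.herm u v
  rw [hu, hv] at h1
  linear_combination h1

/-- the alternating form `κ h` on `V₀` -/
def bf (h : TA n q T) (hF : Fintype.card F = q ^ 2) {κ : F} (hκ : κ + κ ^ q = 0) :
    LinearMap.BilinForm (K0 hF) (h.V0 hF) :=
  LinearMap.mk₂ (K0 hF) (fun u v => ⟨κ * hermForm n F q u v, by
      rw [mem_K0, mul_pow, h.herm_V0 u.2 v.2]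
      linear_combination (-hermForm n F q u v) * hκ⟩)
    (fun u u' v => Subtype.ext (by
      show κ * hermForm n F q ((u : Fin n → F) + u') v = κ * hermForm n F q u v + κ * hermForm n F q u' v
      rw [herm_add_left, mul_add]))
    (fun c u v => Subtype.ext (by
      show κ * hermForm n F q ((c : F) • (u : Fin n → F)) v = c * (κ * hermForm n F q u v)
      rw [herm_smul_left]; ring))
    (fun u v v' => Subtype.ext (by
      show κ * hermForm n F q u ((v : Fin n → F) + v') = κ * hermForm n F q u v + κ * hermForm n F q u v'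
      rw [herm_add_right hF, mul_add]))
    (fun c u v => Subtype.ext (by
      show κ * hermForm n F q u ((c : F) • (v : Fin n → F)) = c * (κ * hermForm n F q u v)
      rw [herm_smul_right, mem_K0.1 c.2]; ring))

theorem coe_bf (h : TA n q T) (hF : Fintype.card F = q ^ 2) {κ : F} (hκ : κ + κ ^ q = 0) (u v : h.V0 hF) :
    ((h.bf hF hκ u v : K0 hF) : F) = κ * hermForm n F q u v := rfl

/-- the form is alternating and nondegenerate -/
theorem nalt (h : TA n q T) (hF : Fintype.card F = q ^ 2) {κ : F} (hκ : κ + κ ^ q = 0) (hκ0 : κ ≠ 0) :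
    H520.RC.NAlt (h.bf hF hκ) where
  alt u := Subtype.ext (by
    rw [coe_bf, h.alt u u.2, mul_zero]
    rfl)
  nd u hu := by
    apply Subtype.ext
    refine herm_nondeg hF fun v => ?_
    obtain ⟨θ, hθ⟩ := exists_not_fixed hF
    obtain ⟨a, b, ha, hb, rfl⟩ := h.dec hF hθ v
    have key : ∀ w, T w = w → hermForm n F q u w = 0 := by
      intro w hw
      have h1 := congrArg (fun c : K0 hF => (c : F)) (hu ⟨w, hw⟩)
      have h2 : κ * hermForm n F q u w = 0 := h1
      exact (mul_eq_zero.1 h2).resolve_left hκ0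
    rw [herm_add_right hF, herm_smul_right, key a ha, key b hb, mul_zero, add_zero]

/-- the centralizer of `T` in `SU` -/
def C (T : (Fin n → F) → (Fin n → F)) : Subgroup (SU n F q) where
  carrier := {s | ∀ v, act s (T v) = T (act s v)}
  one_mem' v := by rw [act_one, act_one]
  mul_mem' {s t} hs ht v := by
    rw [act_mul, ht v, hs, act_mul]
  inv_mem' {s} hs v := by
    apply act_injective s
    rw [act_act_inv, hs, act_act_inv]

theorem mem_C {s : SU n F q} : s ∈ C T ↔ ∀ v, act s (T v) = T (act s v) := Iff.rfl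

/-- the restriction to `V₀` -/
def res (h : TA n q T) (hF : Fintype.card F = q ^ 2) {κ : F} (hκ : κ + κ ^ q = 0) :
    C (F := F) (n := n) (q := q) T →* H520.RC.Sp (h.bf hF hκ) where
  toFun s := ⟨
    { toFun := fun v => ⟨act s.1 v, by
        show T (act s.1 v) = act s.1 v
        rw [← mem_C.1 s.2, v.2]⟩
      invFun := fun v => ⟨act s.1⁻¹ v, by
        show T (act s.1⁻¹ v) = act s.1⁻¹ v
        rw [← mem_C.1 (Subgroup.inv_mem _ s.2), v.2]⟩
      left_inv := fun v => Subtype.ext (act_inv_act _ _)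
      right_inv := fun v => Subtype.ext (act_act_inv _ _)
      map_add' := fun v w => Subtype.ext (act_add _ _ _)
      map_smul' := fun c v => Subtype.ext (act_smul _ (c : F) _) }, fun u v => Subtype.ext (by
        show κ * hermForm n F q (act s.1 u) (act s.1 v) = κ * hermForm n F q u v
        rw [herm_act])⟩
  map_one' := by
    apply Subtype.ext
    apply LinearEquiv.ext
    intro v
    exact Subtype.ext (act_one _)
  map_mul' s t := by
    apply Subtype.ext
    apply LinearEquiv.ext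
    intro v
    exact Subtype.ext (act_mul _ _ _)

theorem coe_res (h : TA n q T) (hF : Fintype.card F = q ^ 2) {κ : F} (hκ : κ + κ ^ q = 0)
    (s : C (F := F) (n := n) (q := q) T) (v : h.V0 hF) :
    (((h.res hF hκ s).1 v : h.V0 hF) : Fin n → F) = act s.1 v := rfl

theorem res_injective (h : TA n q T) (hF : Fintype.card F = q ^ 2) {κ : F} (hκ : κ + κ ^ q = 0) :
    Function.Injective (h.res hF hκ) := by
  intro s t hst
  apply Subtype.ext
  apply ext_act
  refine h.eq_on hF (act_add _) (act_smul _) (act_add _) (act_smul _) fun v hv => ?_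
  have h1 := congrArg (fun r : H520.RC.Sp (h.bf hF hκ) => ((r.1 ⟨v, hv⟩ : h.V0 hF) : Fin n → F)) hst
  exact h1

/-- transvections with centre in `V₀` -/
theorem transv_mem_C (h : TA n q T) (hF : Fintype.card F = q ^ 2) {e : Fin n → F} (he : T e = e) {μ : F}
    (hμ : μ + μ ^ q = 0) : transv hF e (h.alt e he) μ hμ ∈ C (F := F) (n := n) (q := q) T := by
  intro v
  rw [act_transv, act_transv, h.add, h.smul, he]
  have h1 := h.herm v e
  rw [he] at h1
  rw [h1, mul_pow]
  congr 2
  linear_combination (-(hermForm n F q v e) ^ q) * hμ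

theorem res_surjective (h : TA n q T) (hF : Fintype.card F = q ^ 2) {κ : F} (hκ : κ + κ ^ q = 0) (hκ0 : κ ≠ 0) :
    Function.Surjective (h.res hF hκ) := by
  rw [← MonoidHom.range_eq_top]
  refine H520.RC.gen_tv (h.nalt hF hκ hκ0) _ fun e c => ?_
  have hc : (c * κ : F) + (c * κ) ^ q = 0 := by
    rw [mul_pow, mem_K0.1 c.2]
    linear_combination (c : F) * hκ
  refine ⟨⟨transv hF (e : Fin n → F) (h.alt e e.2) (c * κ) hc, h.transv_mem_C hF e.2 hc⟩, ?_⟩
  apply Subtype.ext
  apply LinearEquiv.ext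
  intro v
  apply Subtype.ext
  rw [coe_res, act_transv, H520.RC.tv_apply]
  show (v : Fin n → F) + (c * κ * hermForm n F q v e) • (e : Fin n → F) =
    (v : Fin n → F) + ((c : F) * (κ * hermForm n F q v e)) • (e : Fin n → F)
  rw [mul_assoc]

end TA

end V0

section mrule

open MulAction Cfsg.Agent.H106.RC

/-- **The M-rule for a homomorphism.** -/
theorem mrule_hom {G S X Ω ι : Type} [Group G] [Finite G] [Group S] [Finite S] [Group X] [Finite X] [MulAction G Ω]
    [Finite ι] (hIH : IH (Nat.card S)) {N : Subgroup G} (e : N ≃* S) (f : X →* G) (hN : f.range ≤ N)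
    (hne : f.range ≠ N) (hker : ∀ s, f s = 1 → s ∈ Subgroup.center X) (hperf : commutator X = ⊤)
    (h1 : IsSimpleGroup (X ⧸ Subgroup.center X)) (h2 : ¬ IsMulCommutative (X ⧸ Subgroup.center X))
    (h3 : Cl (X ⧸ Subgroup.center X)) (h4 : ¬ Exc (X ⧸ Subgroup.center X))
    {x : ι → G} {r : ι → ℕ} (hx : PF x r) (hcov : Cov Ω x) (hnorm : ∀ i s, ∃ s', x i * f s * (x i)⁻¹ = f s') (ω : Ω) :
    (∀ s, f s • ω = ω) ∨ ∃ i, (∀ s, x i * f s = f s * x i) ∧ x i • ω = ω := by
  set K : Subgroup G := f.range with hK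
  have hKperf : ⁅K, K⁆ = K := by
    have h3 := Subgroup.map_commutator (⊤ : Subgroup X) ⊤ f
    rw [← commutator_def, hperf, ← MonoidHom.range_eq_map] at h3
    exact h3.symm
  have hlift : ∀ m : K, ∃ s, f s = m := fun m => m.2
  let π : K →* X ⧸ Subgroup.center X :=
    { toFun := fun m => QuotientGroup.mk (hlift m).choose
      map_one' := by
        rw [QuotientGroup.eq_one_iff]
        exact hker _ (hlift 1).choose_spec
      map_mul' := fun m n => by
        rw [← QuotientGroup.mk_mul, QuotientGroup.eq]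
        apply hker
        rw [map_mul, map_inv, map_mul, (hlift _).choose_spec, (hlift _).choose_spec, (hlift _).choose_spec]
        rw [Subgroup.coe_mul]
        group }
  have hπ : ∀ s, π ⟨f s, s, rfl⟩ = QuotientGroup.mk s := by
    intro s
    show QuotientGroup.mk (hlift ⟨f s, s, rfl⟩).choose = _
    rw [QuotientGroup.eq]
    apply hker
    rw [map_mul, map_inv, (hlift _).choose_spec, inv_mul_cancel]
  have hπs : Function.Surjective π := by
    intro y
    obtain ⟨s, rfl⟩ := QuotientGroup.mk_surjective y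
    exact ⟨_, hπ s⟩
  have hπk : π.ker ≤ Subgroup.center K := by
    rintro ⟨_, s, rfl⟩ hs
    rw [MonoidHom.mem_ker] at hs
    rw [hπ, QuotientGroup.eq_one_iff] at hs
    rw [Subgroup.mem_center_iff]
    rintro ⟨_, t, rfl⟩
    apply Subtype.ext
    show f t * f s = f s * f t
    rw [← map_mul, ← map_mul, Subgroup.mem_center_iff.1 hs]
  have hnK : ∀ i, x i ∈ Subgroup.normalizer (K : Set G) := by
    intro i
    have h3 : ∀ m ∈ K, x i * m * (x i)⁻¹ ∈ K := by
      rintro _ ⟨s, rfl⟩
      obtain ⟨s', hs'⟩ := hnorm i s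
      exact ⟨s', hs'.symm⟩
    rw [Subgroup.mem_normalizer_iff]
    intro m
    refine ⟨fun hm => h3 m hm, fun hm => ?_⟩
    have h4 : ∀ n : ℕ, x i ^ n * (x i * m * (x i)⁻¹) * (x i ^ n)⁻¹ ∈ K := by
      intro n
      induction n with
      | zero => simpa using hm
      | succ n ih =>
        have h5 := h3 _ ih
        have h6 : x i * (x i ^ n * (x i * m * (x i)⁻¹) * (x i ^ n)⁻¹) * (x i)⁻¹ =
            x i ^ (n + 1) * (x i * m * (x i)⁻¹) * (x i ^ (n + 1))⁻¹ := by
          rw [pow_succ']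
          group
        rwa [h6] at h5
    obtain ⟨n, hn⟩ : ∃ n, r i = n + 1 := ⟨r i - 1, by have := (hx.prime i).pos; omega⟩
    have h4 := h4 n
    have h5 : x i ^ n = (x i)⁻¹ := by
      rw [eq_inv_iff_mul_eq_one, ← pow_succ, ← hn]
      exact hx.pow i
    rw [h5] at h4
    have h6 : (x i)⁻¹ * (x i * m * (x i)⁻¹) * ((x i)⁻¹)⁻¹ = m := by group
    rwa [h6] at h4
  rcases mrule_IH hIH e hN hne hKperf π hπs hπk h1 h2 h3 h4 hx hcov hnK ω with h5 | ⟨i, h5, h6⟩
  · exact Or.inl fun s => h5 ⟨s, rfl⟩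
  · exact Or.inr ⟨i, fun s => h5 _ ⟨s, rfl⟩, h6⟩

end mrule

section final

open MulAction Cfsg.Agent.H106.RC

/-- the sign is `-1` -/
theorem tA_of_gForm {G Ω : Type*} [Group G] [MulAction G Ω] {N : Subgroup G} {F : Type*} [Field F] [Fintype F] {n q : ℕ}
    {U : UEnv G Ω N F n q} {ι : Type*} {x : ι → G} {f : ι → (Fin n → F) → (Fin n → F)} {r : ι → ℕ} {i₀ : ι}
    {T : (Fin n → F) → (Fin n → F)} (hG : GForm U x f r i₀ T) (halt : ∀ v, T v = v → hermForm n F q v v = 0) :
    TA n q T := by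
  have hF := U.hF
  have hn := U.hn
  refine ⟨hG.TT, hG.add, hG.smul, ?_, halt⟩
  obtain ⟨ε, h1 | h1, h2⟩ := hG.herm
  · -- `2 = 0`
    have h0 : T 0 = 0 := by
      have := hG.add 0 0
      rw [add_zero] at this
      simpa using this
    have hneg : ∀ v, T (-v) = -T v := by
      intro v
      rw [eq_neg_iff_add_eq_zero, ← hG.add, neg_add_cancel, h0]
    have hsub : ∀ v w, T (v - w) = T v - T w := by
      intro v w
      rw [sub_eq_add_neg, hG.add, hneg, ← sub_eq_add_neg]
    have key : ∀ u v, T u = u → T v = v → 2 * hermForm n F q u v = 0 := by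
      intro u v hu hv
      have h3 := halt (u + v) (by rw [hG.add, hu, hv])
      rw [herm_add_left, herm_add_right hF, herm_add_right hF, halt u hu, halt v hv, zero_add, add_zero,
        herm_swap hF u v] at h3
      have h4 := h2 u v
      rw [hu, hv, h1, one_mul] at h4
      linear_combination h3 + h4
    have h20 : (2 : F) = 0 := by
      by_contra h2n
      obtain ⟨θ, hθ⟩ := exists_not_fixed hF
      have key' : ∀ u v, T u = u → T v = v → hermForm n F q u v = 0 := fun u v hu hv =>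
        (mul_eq_zero.1 (key u v hu hv)).resolve_left h2n
      have hall : ∀ u v, hermForm n F q u v = 0 := by
        intro u v
        obtain ⟨a, b, ha, hb, rfl⟩ := exists_dec hF hG.TT hsub hG.smul hθ u
        obtain ⟨a', b', ha', hb', rfl⟩ := exists_dec hF hG.TT hsub hG.smul hθ v
        rw [herm_add_left, herm_add_right hF, herm_add_right hF, herm_smul_left, herm_smul_left, herm_smul_right,
          herm_smul_right, key' _ _ ha ha', key' _ _ ha hb', key' _ _ hb ha', key' _ _ hb hb']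
        ring
      have h5 := hall (Pi.single ⟨0, by omega⟩ 1) (Pi.single ⟨0, by omega⟩ 1)
      rw [herm_single_left, Pi.single_eq_same, one_pow, one_mul] at h5
      exact one_ne_zero h5
    intro u v
    rw [h2, h1]
    linear_combination (hermForm n F q u v) ^ q * h20
  · intro u v
    rw [h2, h1]
    ring

/-- **E12b** -/
theorem graphAlt : GraphAlt := by
  intro G Ω _ _ _ _ _ N F _ _ n q U ι _ x f r hU hcov ⟨h42, hIH, i₀, T, hG, halt⟩
  have hF := U.hF
  have hn := U.hn
  have h := tA_of_gForm hG halt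
  obtain ⟨κ, hκ0, hκ⟩ := exists_trace_zero_ne hF
  have hB := h.nalt hF hκ hκ0
  have hfd : Module.Finite (K0 hF) (h.V0 hF) := Module.Finite.of_finite
  have hdim := h.finrank_V0 (hF := hF)
  obtain ⟨m, hm⟩ := H520.RC.exists_dim hB
  have hcond : 6 ≤ Module.finrank (K0 hF) (h.V0 hF) ∨ (Module.finrank (K0 hF) (h.V0 hF) = 4 ∧ 3 ≤ Nat.card (K0 hF)) := by
    have h2 := two_le hF
    rw [card_K0]
    by_cases h4 : n = 4
    · right
      refine ⟨by omega, ?_⟩
      by_contra h3
      exact h42 ⟨h4, by omega⟩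
    · left
      omega
  have hcond' : 6 ≤ Module.finrank (K0 hF) (h.V0 hF) ∨ (Module.finrank (K0 hF) (h.V0 hF) = 4 ∧ 3 ≤ Nat.card (K0 hF)) ∨
      (Module.finrank (K0 hF) (h.V0 hF) ≠ 0 ∧ 4 ≤ Nat.card (K0 hF)) := by tauto
  -- the homomorphism
  let e0 : TA.C (F := F) (n := n) (q := q) T ≃* H520.RC.Sp (h.bf hF hκ) :=
    MulEquiv.ofBijective (h.res hF hκ) ⟨h.res_injective hF hκ, h.res_surjective hF hκ hκ0⟩
  have hfinSp : Finite (H520.RC.Sp (h.bf hF hκ)) := Finite.of_equiv _ e0.toEquiv
  let j : H520.RC.Sp (h.bf hF hκ) →* G := (U.el.comp (TA.C T).subtype).comp e0.symm.toMonoidHom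
  have hj : ∀ s : TA.C (F := F) (n := n) (q := q) T, j (e0 s) = U.el s := by
    intro s
    show U.el ((e0.symm (e0 s) : TA.C T) : SU n F q) = U.el s
    rw [e0.symm_apply_apply]
  have hj' : ∀ t, ∃ s : TA.C (F := F) (n := n) (q := q) T, e0 s = t := e0.surjective
  -- `f i₀`
  obtain ⟨b, hb0, hb⟩ := hG.eq
  have hfT : ∀ v, f i₀ v = b⁻¹ • T v := by
    intro v
    rw [hb, smul_smul, inv_mul_cancel₀ hb0, one_smul]
  have hcent0 : ∀ s : TA.C (F := F) (n := n) (q := q) T, x i₀ * U.el s * (x i₀)⁻¹ = U.el s := by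
    intro s
    refine (hU.lft i₀).conj_el fun v => ?_
    rw [hfT, hfT, act_smul, TA.mem_C.1 s.2]
  -- the M-rule
  have hM : ∀ ω : Ω, (∀ t, j t • ω = ω) ∨ ∃ i, (∀ t, x i * j t = j t * x i) ∧ x i • ω = ω := by
    intro ω
    refine mrule_hom hIH U.e j ?_ ?_ ?_ (H520.RC.perfect_Sp hB (by tauto)) (H520.RC.simple_Sp hB hcond')
      (H520.RC.ncomm_Sp hB hcond') (H520.RC.cl_Sp hB hcond') (H520.RC.not_exc_Sp hB hcond) hU.pf hcov ?_ ω
    · rintro _ ⟨t, rfl⟩
      exact U.el_mem _
    · intro hN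
      apply hU.pf.ne i₀
      have h1 : x i₀ ∈ Subgroup.centralizer (N : Set G) := by
        rw [Subgroup.mem_centralizer_iff]
        intro y hy
        rw [← hN] at hy
        obtain ⟨t, rfl⟩ := hy
        obtain ⟨s, rfl⟩ := hj' t
        rw [hj]
        have h2 := hcent0 s
        rw [mul_inv_eq_iff_eq_mul] at h2
        exact h2.symm
      rw [U.env.cent] at h1
      exact Subgroup.mem_bot.1 h1
    · intro t ht
      obtain ⟨s, rfl⟩ := hj' t
      rw [hj, U.el_eq_one] at ht
      rw [Subgroup.mem_center_iff]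
      intro t'
      obtain ⟨s', rfl⟩ := hj' t'
      rw [← map_mul, ← map_mul]
      congr 1
      exact Subtype.ext (Subgroup.mem_center_iff.1 ht s')
    · intro i t
      obtain ⟨s, rfl⟩ := hj' t
      rw [hj]
      by_cases hi : i = i₀
      · subst hi
        exact ⟨e0 s, by rw [hj, hcent0]⟩
      · obtain ⟨s', hs'⟩ := (hU.lft i).exists_conj (s : SU n F q)
        have hs'C : s' ∈ TA.C (F := F) (n := n) (q := q) T := by
          intro w
          obtain ⟨v, rfl⟩ := Ind.surjective (hU.lft i) w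
          rw [← hG.comm i hi, ← hs', ← hs', TA.mem_C.1 s.2, hG.comm i hi]
        exact ⟨e0 ⟨s', hs'C⟩, by rw [hj]; exact (hU.lft i).conj_el hs'⟩
  -- the centralizer of `M`
  have hcen : ∀ i, i ≠ i₀ → ¬ ∀ t, x i * j t = j t * x i := by
    intro i hi hc
    have hlin := hG.lin i hi
    have hadd := Ind.map_add (hU.lft i)
    obtain ⟨ρ, hs, hh⟩ := Ind.exists_rho (hU.lft i)
    have hρ : ∀ c, ρ c = c := by
      intro c
      have h1 := hs c (Pi.single ⟨0, by omega⟩ 1)
      rw [hlin c] at h1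
      have h2 : f i (Pi.single ⟨0, by omega⟩ 1) ≠ 0 := by
        intro h0
        have h3 := hh (Pi.single ⟨0, by omega⟩ 1) (Pi.single ⟨0, by omega⟩ 1)
        rw [h0, herm_zero_left, herm_single_left, Pi.single_eq_same, one_pow, one_mul, map_one] at h3
        exact zero_ne_one h3
      have h3 : (c - ρ c) • f i (Pi.single ⟨0, by omega⟩ 1) = 0 := by rw [sub_smul, ← h1, sub_self]
      exact (sub_eq_zero.1 ((smul_eq_zero.1 h3).resolve_right h2)).symm
    have hh' : ∀ u v, hermForm n F q (f i u) (f i v) = hermForm n F q u v := fun u v => by rw [hh, hρ]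
    have hline : ∀ e : Fin n → F, T e = e → e ≠ 0 → ∃ c : F, f i e = c • e := by
      intro e he he0
      set s : SU n F q := transv hF e (h.alt e he) κ hκ with hsdef
      have hsC : s ∈ TA.C (F := F) (n := n) (q := q) T := h.transv_mem_C hF he hκ
      obtain ⟨s', hs'⟩ := (hU.lft i).exists_conj s
      have h1 := (hU.lft i).conj_el hs'
      have h2 := hc (e0 ⟨s, hsC⟩)
      rw [hj] at h2
      rw [show x i * U.el s = U.el s * x i from h2, mul_inv_cancel_right] at h1
      -- `act s' = c • act s`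
      have h3 := U.lft_el s'
      rw [← h1] at h3
      obtain ⟨c, -, h4⟩ := (U.lft_el s).unique h3
      have h5 : ∀ v, f i (act s v) = c • act s (f i v) := fun v => by rw [hs', h4]
      have h6 : ∀ v, f i v + (κ * hermForm n F q v e) • f i e =
          c • (f i v + (κ * hermForm n F q (f i v) e) • e) := by
        intro v
        have := h5 v
        rw [hsdef, act_transv, act_transv, hadd, hlin] at this
        exact this
      have h7 := h6 e
      rw [h.alt e he, mul_zero, zero_smul, add_zero, smul_add] at h7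
      by_cases hc1 : c = 1
      · obtain ⟨v, hv⟩ := exists_herm_ne_zero hF he0
        have hv' : hermForm n F q v e ≠ 0 := fun h0 => hv (herm_eq_zero_swap hF h0)
        have h8 := h6 v
        rw [hc1, one_smul, add_right_inj, mul_smul, mul_smul] at h8
        have h9 : hermForm n F q v e • f i e = hermForm n F q (f i v) e • e := by
          have := congrArg (fun w => κ⁻¹ • w) h8
          simpa only [smul_smul, inv_mul_cancel_left₀ hκ0] using this
        refine ⟨(hermForm n F q v e)⁻¹ * hermForm n F q (f i v) e, ?_⟩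
        rw [mul_smul, ← h9, smul_smul, inv_mul_cancel₀ hv', one_smul]
      · refine ⟨(1 - c)⁻¹ * (c * (κ * hermForm n F q (f i e) e)), ?_⟩
        have h8 : (1 - c) • f i e = (c * (κ * hermForm n F q (f i e) e)) • e := by
          rw [sub_smul, one_smul, sub_eq_iff_eq_add, add_comm, mul_smul]
          exact h7
        rw [mul_smul, ← h8, smul_smul, inv_mul_cancel₀ (sub_ne_zero.2 (Ne.symm hc1)), one_smul]
    -- `f i` is a scalar on `V₀`
    have hmem : ∀ v, T v = v → T (f i v) = f i v := fun v hv => by rw [← hG.comm i hi, hv]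
    let φ : h.V0 hF →+ h.V0 hF :=
      { toFun := fun v => ⟨f i v, hmem v v.2⟩
        map_zero' := Subtype.ext (Ind.map_zero (hU.lft i))
        map_add' := fun v w => Subtype.ext (hadd _ _) }
    obtain ⟨c, hc'⟩ := H520.RC.scal_of_lines (F := K0 hF) (by rw [hdim]; omega) φ (by
      intro v
      by_cases hv : v = 0
      · exact ⟨0, by rw [hv, map_zero, smul_zero]⟩
      · have hv' : (v : Fin n → F) ≠ 0 := fun h0 => hv (Subtype.ext h0)
        obtain ⟨c, hc⟩ := hline v v.2 hv'
        have hcq : c ^ q = c := by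
          have h1 := hmem v v.2
          rw [hc, hG.smul, show T v = v from v.2] at h1
          have h2 : (c ^ q - c) • (v : Fin n → F) = 0 := by rw [sub_smul, h1, sub_self]
          exact sub_eq_zero.1 ((smul_eq_zero.1 h2).resolve_right hv')
        exact ⟨⟨c, hcq⟩, Subtype.ext hc⟩)
    apply hU.pf.ne i
    rw [(hU.lft i).eq_one_iff]
    refine ⟨c, h.eq_on hF hadd hlin (fun v w => smul_add _ _ _) (fun a v => smul_comm _ _ _) fun v hv => ?_⟩
    exact congrArg Subtype.val (hc' ⟨v, hv⟩)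
  have hfin : ∀ ω : Ω, (∀ t, j t • ω = ω) ∨ x i₀ • ω = ω := by
    intro ω
    rcases hM ω with h1 | ⟨i, h1, h2⟩
    · exact Or.inl h1
    · right
      by_cases hi : i = i₀
      · rw [← hi]; exact h2
      · exact absurd h1 (hcen i hi)
  -- a vector of `V₀`
  obtain ⟨e, he, he0⟩ : ∃ e : Fin n → F, T e = e ∧ e ≠ 0 := by
    have : 0 < Module.finrank (K0 hF) (h.V0 hF) := by omega
    have : Nontrivial (h.V0 hF) := Module.nontrivial_of_finrank_pos this
    obtain ⟨e, he⟩ := exists_ne (0 : h.V0 hF)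
    exact ⟨e, e.2, fun h0 => he (Subtype.ext h0)⟩
  refine U.root_one (hU.lft i₀) he0 (h.alt e he) (c := b⁻¹) (by rw [hfT, he]) hG.nlin hκ hκ0 fun ω => ?_
  rcases hfin ω with h1 | h1
  · left
    have h2 := h1 (e0 ⟨transv hF e (h.alt e he) κ hκ, h.transv_mem_C hF he hκ⟩)
    rwa [hj] at h2
  · exact Or.inr h1

end final

end Cfsg.Agent.H433.RC
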